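import Cfsg.Agent.H399.Main
import Cfsg.Agent.H399.KillC
import Cfsg.Agent.H399.Defs2

/-!
# Primitive groups with a suborbit of length 4: the structure of `A` in the cases `K = 1` and I
-/

set_option autoImplicit false
set_option linter.unusedSectionVars false

open Pointwise

namespace Cfsg.Agent.H399

variable {G : Type*} [Group G]

theorem key_v1 : ∀ σ : Equiv.Perm (Fin 4), ¬ (σ * σ = 1 ∧ Equiv.Perm.sign σ = 1) → σ ^ 3 ≠ 1 →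
    ∃ τ : Equiv.Perm (Fin 4), Equiv.Perm.sign τ = 1 ∧ (σ * (τ * σ * τ⁻¹)) ^ 3 = 1 ∧ σ * (τ * σ * τ⁻¹) ≠ 1 := by
  decide +kernel

theorem key_v2 : ∀ σ ρ : Equiv.Perm (Fin 4), (σ * σ = 1 ∧ Equiv.Perm.sign σ = 1 ∧ σ ≠ 1) →
    (ρ * ρ = 1 ∧ Equiv.Perm.sign ρ = 1 ∧ ρ ≠ 1) → ∃ τ : Equiv.Perm (Fin 4), Equiv.Perm.sign τ = 1 ∧
      τ * σ * τ⁻¹ = ρ := by
  decide +kernel

theorem key_v3 : ∀ σ : Equiv.Perm (Fin 4), (∀ ρ : Equiv.Perm (Fin 4), ρ * ρ = 1 → Equiv.Perm.sign ρ = 1 →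
    ρ * σ = σ * ρ) → σ * σ = 1 ∧ Equiv.Perm.sign σ = 1 := by
  decide +kernel

theorem key_v4 : Fintype.card {σ : Equiv.Perm (Fin 4) // σ * σ = 1 ∧ Equiv.Perm.sign σ = 1} = 4 := by
  decide +kernel

theorem key_v5 : ∀ σ ρ : Equiv.Perm (Fin 4), (σ * σ = 1 ∧ Equiv.Perm.sign σ = 1) →
    (ρ * ρ = 1 ∧ Equiv.Perm.sign ρ = 1) → σ * ρ = ρ * σ := by
  decide +kernel

theorem key_v6 : ∃ σ : Equiv.Perm (Fin 4), σ * σ = 1 ∧ Equiv.Perm.sign σ = 1 ∧ σ ≠ 1 := by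
  decide +kernel

section

variable [Finite G] {A B V : Subgroup G}

/-- a normal 2-subgroup meeting the kernel trivially -/
structure HV (A B V : Subgroup G) : Prop where
  le : V ≤ A
  nm : A ≤ Nm V
  two : IsPGroup 2 V
  bot : V ⊓ K A B = ⊥
  ne : V ≠ ⊥

theorem eq_one_of_two {X : Subgroup G} (h : IsPGroup 2 X) {x : G} (hx : x ∈ X) (h3 : x ^ 3 = 1) : x = 1 := by
  obtain ⟨n, hn⟩ := h ⟨x, hx⟩
  have h1 : x ^ 2 ^ n = 1 := congrArg Subtype.val hn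
  have h2 : orderOf x ∣ Nat.gcd 3 (2 ^ n) := Nat.dvd_gcd (orderOf_dvd_of_pow_eq_one h3) (orderOf_dvd_of_pow_eq_one h1)
  have h4 : Nat.gcd 3 (2 ^ n) = 1 := Nat.Coprime.pow_right n (by norm_num)
  rw [h4, Nat.dvd_one, orderOf_eq_one_iff] at h2
  exact h2

variable {φ : ↥A →* Equiv.Perm (Fin 4)}

theorem HV.img (h : HV A B V) (hφ : Hom4 A (A ⊓ B) φ) {v : G} (hv : v ∈ V) :
    φ ⟨v, h.le hv⟩ * φ ⟨v, h.le hv⟩ = 1 ∧ Equiv.Perm.sign (φ ⟨v, h.le hv⟩) = 1 := by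
  by_contra hcon
  have hone : ∀ w (hw : w ∈ V), φ ⟨w, h.le hw⟩ ^ 3 = 1 → w = 1 := by
    intro w hw hw3
    apply eq_one_of_two h.two hw
    have h1 : w ^ 3 ∈ V ⊓ K A B := by
      refine ⟨V.pow_mem hw 3, ?_⟩
      have := (hφ.ker (⟨w, h.le hw⟩ ^ 3)).2 (by rw [map_pow, hw3])
      exact this
    rw [h.bot, Subgroup.mem_bot] at h1
    exact h1
  by_cases h3 : φ ⟨v, h.le hv⟩ ^ 3 = 1
  · have := hone v hv h3
    subst this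
    apply hcon
    have e : φ ⟨1, h.le hv⟩ = 1 := map_one φ
    rw [e]
    simp
  obtain ⟨τ, hτ, h4, h5⟩ := key_v1 _ hcon h3
  obtain ⟨a, ha, rfl⟩ := hφ.exists_alt τ hτ
  have hw : v * (a * v * a⁻¹) ∈ V := V.mul_mem hv (Nm_conj (h.nm ha) hv)
  have e : φ ⟨v * (a * v * a⁻¹), h.le hw⟩ = φ ⟨v, h.le hv⟩ * (φ ⟨a, ha⟩ * φ ⟨v, h.le hv⟩ * (φ ⟨a, ha⟩)⁻¹) := by
    rw [← map_inv, ← map_mul, ← map_mul, ← map_mul]
    rfl
  have h6 := hone _ hw (by rw [e]; exact h4)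
  apply h5
  rw [← e]
  have : (⟨v * (a * v * a⁻¹), h.le hw⟩ : A) = 1 := Subtype.ext h6
  rw [this, map_one]

theorem HV.inj (h : HV A B V) (hφ : Hom4 A (A ⊓ B) φ) {v w : G} (hv : v ∈ V) (hw : w ∈ V)
    (he : φ ⟨v, h.le hv⟩ = φ ⟨w, h.le hw⟩) : v = w := by
  have h1 : v * w⁻¹ ∈ V ⊓ K A B := by
    refine ⟨V.mul_mem hv (V.inv_mem hw), ?_⟩
    have := (hφ.ker (⟨v, h.le hv⟩ * ⟨w, h.le hw⟩⁻¹)).2 (by rw [map_mul, map_inv, he, mul_inv_cancel])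
    exact this
  rw [h.bot, Subgroup.mem_bot, mul_inv_eq_one] at h1
  exact h1

theorem HV.surj (h : HV A B V) (hφ : Hom4 A (A ⊓ B) φ) {ρ : Equiv.Perm (Fin 4)} (h1 : ρ * ρ = 1)
    (h2 : Equiv.Perm.sign ρ = 1) : ∃ v, ∃ hv : v ∈ V, φ ⟨v, h.le hv⟩ = ρ := by
  by_cases h0 : ρ = 1
  · exact ⟨1, V.one_mem, by rw [h0]; exact map_one φ⟩
  obtain ⟨v, hv, hv1⟩ : ∃ v ∈ V, v ≠ 1 := by
    by_contra hcon
    push Not at hcon
    exact h.ne ((Subgroup.eq_bot_iff_forall _).2 hcon)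
  have h3 := h.img hφ hv
  obtain ⟨τ, hτ, h4⟩ := key_v2 (φ ⟨v, h.le hv⟩) ρ ⟨h3.1, h3.2, fun h5 => hv1 (h.inj hφ hv V.one_mem
    (by rw [h5]; exact (map_one φ).symm))⟩ ⟨h1, h2, h0⟩
  obtain ⟨a, ha, rfl⟩ := hφ.exists_alt τ hτ
  refine ⟨a * v * a⁻¹, Nm_conj (h.nm ha) hv, ?_⟩
  rw [← h4, ← map_inv, ← map_mul, ← map_mul]
  rfl

theorem HV.card (h : HV A B V) (hP : P3 A B) : Nat.card V = 4 := by
  obtain ⟨φ, hφ⟩ := hP.hom
  rw [← key_v4, ← Nat.card_eq_fintype_card]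
  refine Nat.card_congr (Equiv.ofBijective (fun v : V => ⟨φ ⟨v, h.le v.2⟩, h.img hφ v.2⟩) ⟨?_, ?_⟩)
  · intro v w hvw
    exact Subtype.ext (h.inj hφ v.2 w.2 (congrArg Subtype.val hvw))
  · rintro ⟨ρ, h1, h2⟩
    obtain ⟨v, hv, he⟩ := h.surj hφ h1 h2
    exact ⟨⟨v, hv⟩, Subtype.ext he⟩

theorem HV.sq (h : HV A B V) (hP : P3 A B) {x : G} (hx : x ∈ V) : x * x = 1 := by
  obtain ⟨φ, hφ⟩ := hP.hom
  have h1 := (h.img hφ hx).1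
  have h2 : φ ⟨x * x, h.le (V.mul_mem hx hx)⟩ = φ ⟨1, h.le V.one_mem⟩ := by
    have e1 : φ ⟨x * x, h.le (V.mul_mem hx hx)⟩ = φ ⟨x, h.le hx⟩ * φ ⟨x, h.le hx⟩ := by
      rw [← map_mul]
      rfl
    rw [e1, h1]
    exact (map_one φ).symm
  exact h.inj hφ (V.mul_mem hx hx) V.one_mem h2

theorem HV.comm (h : HV A B V) (hP : P3 A B) {x y : G} (hx : x ∈ V) (hy : y ∈ V) : x * y = y * x := by
  have h1 := h.sq hP hx
  have h2 := h.sq hP hy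
  have h3 := h.sq hP (V.mul_mem hx hy)
  have e1 : x⁻¹ = x := inv_eq_of_mul_eq_one_left h1
  have e2 : y⁻¹ = y := inv_eq_of_mul_eq_one_left h2
  have e3 : (x * y)⁻¹ = x * y := inv_eq_of_mul_eq_one_left h3
  rw [← e3, mul_inv_rev, e1, e2]

theorem HV.commK (h : HV A B V) {x y : G} (hx : x ∈ V) (hy : y ∈ K A B) : x * y = y * x :=
  commute_of_inf_bot h.bot (h.le.trans (le_Nm_K A B)) ((K_le_left A B).trans h.nm) x hx y hy

theorem HV.of_cent (h : HV A B V) (hP : P3 A B) {a : G} (ha : a ∈ A) (hc : ∀ v ∈ V, v * a = a * v) :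
    ∃ v ∈ V, ∃ k ∈ K A B, v * k = a := by
  obtain ⟨φ, hφ⟩ := hP.hom
  have h1 := key_v3 (φ ⟨a, ha⟩) (by
    intro ρ h1 h2
    obtain ⟨v, hv, rfl⟩ := h.surj hφ h1 h2
    rw [← map_mul, ← map_mul]
    congr 1
    exact Subtype.ext (hc v hv))
  obtain ⟨v, hv, he⟩ := h.surj hφ h1.1 h1.2
  refine ⟨v, hv, v⁻¹ * a, ?_, by group⟩
  have := (hφ.ker (⟨v, h.le hv⟩⁻¹ * ⟨a, ha⟩)).2 (by rw [map_mul, map_inv, he, inv_mul_cancel])
  exact this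

theorem HV.cent (h : HV A B V) (hP : P3 A B) : A ⊓ Subgroup.centralizer (V : Set G) = V ⊔ K A B := by
  apply le_antisymm
  · rintro a ⟨ha, hc⟩
    obtain ⟨v, hv, k, hk, rfl⟩ := h.of_cent hP ha (fun v hv => Subgroup.mem_centralizer_iff.1 hc v hv)
    exact Subgroup.mul_mem_sup hv hk
  · refine sup_le (fun x hx => ⟨h.le hx, ?_⟩) (fun x hx => ⟨K_le_left A B hx, ?_⟩)
    · exact Subgroup.mem_centralizer_iff.2 fun v hv => h.comm hP hv hx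
    · exact Subgroup.mem_centralizer_iff.2 fun v hv => h.commK hv hx

theorem HV.card_cent (h : HV A B V) (hP : P3 A B) :
    Nat.card (A ⊓ Subgroup.centralizer (V : Set G) : Subgroup G) = 4 * Nat.card (K A B) := by
  have h1 := card_sup (h.le.trans (le_Nm_K A B))
  rw [h.bot, Subgroup.card_bot, h.card hP, mul_one] at h1
  rw [h.cent hP, h1]

theorem HV.inf_C (h : HV A B V) (hP : P3 A B) : V ⊓ (A ⊓ B) = ⊥ :=
  hP.eq_bot_of_two inf_le_right (inf_le_Nm (inf_le_left.trans h.nm) (self_le_Nm _)) (h.two.to_le inf_le_left)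

theorem HV.of_Op (hP : P3 A B) (h0 : Op 2 A ≠ ⊥) : HV A B (Op 2 A) where
  le := Op_le 2 A
  nm := le_Nm_Op 2 A
  two := isPGroup_Op 2 A
  bot := hP.inf_K_bot
  ne := h0

/-- in the case `K = 1` -/
theorem exists_HV (hP : P3 A B) (hK : K A B = ⊥) : ∃ V, HV A B V := by
  obtain ⟨φ, hφ⟩ := hP.hom
  have hinj : ∀ x (hx : x ∈ A), φ ⟨x, hx⟩ = 1 → x = 1 := by
    intro x hx h1
    have := (hφ.ker ⟨x, hx⟩).2 h1
    rw [show core A (A ⊓ B) = ⊥ from hK, Subgroup.mem_bot] at this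
    exact this
  let V : Subgroup G :=
    { carrier := {x | ∃ hx : x ∈ A, φ ⟨x, hx⟩ * φ ⟨x, hx⟩ = 1 ∧ Equiv.Perm.sign (φ ⟨x, hx⟩) = 1}
      mul_mem' := by
        rintro x y ⟨hx, hx1, hx2⟩ ⟨hy, hy1, hy2⟩
        refine ⟨A.mul_mem hx hy, ?_⟩
        have e : φ ⟨x * y, A.mul_mem hx hy⟩ = φ ⟨x, hx⟩ * φ ⟨y, hy⟩ := by
          rw [← map_mul]
          rfl
        rw [e]
        refine ⟨?_, by rw [map_mul, hx2, hy2, one_mul]⟩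
        have := key_v5 _ _ ⟨hx1, hx2⟩ ⟨hy1, hy2⟩
        calc φ ⟨x, hx⟩ * φ ⟨y, hy⟩ * (φ ⟨x, hx⟩ * φ ⟨y, hy⟩)
            = φ ⟨x, hx⟩ * (φ ⟨y, hy⟩ * φ ⟨x, hx⟩) * φ ⟨y, hy⟩ := by group
          _ = (φ ⟨x, hx⟩ * φ ⟨x, hx⟩) * (φ ⟨y, hy⟩ * φ ⟨y, hy⟩) := by rw [← this]; group
          _ = 1 := by rw [hx1, hy1, one_mul]
      one_mem' := by
        refine ⟨A.one_mem, ?_⟩
        have e : φ ⟨1, A.one_mem⟩ = 1 := map_one φ
        rw [e]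
        simp
      inv_mem' := by
        rintro x ⟨hx, hx1, hx2⟩
        refine ⟨A.inv_mem hx, ?_⟩
        have e : φ ⟨x⁻¹, A.inv_mem hx⟩ = (φ ⟨x, hx⟩)⁻¹ := by
          rw [← map_inv]
          rfl
        rw [e]
        refine ⟨by rw [← mul_inv_rev, hx1, inv_one], by rw [Equiv.Perm.sign_inv, hx2]⟩ }
  have hsq : ∀ x ∈ V, x * x = 1 := by
    rintro x ⟨hx, hx1, -⟩
    apply hinj _ (A.mul_mem hx hx)
    rw [← hx1, ← map_mul]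
    rfl
  refine ⟨V, fun x hx => hx.1, ?_, ?_, by rw [hK, inf_bot_eq], ?_⟩
  · rw [le_Nm]
    rintro a ha x ⟨hx, hx1, hx2⟩
    have hm : a * x * a⁻¹ ∈ A := A.mul_mem (A.mul_mem ha hx) (A.inv_mem ha)
    refine ⟨hm, ?_⟩
    have e : φ ⟨a * x * a⁻¹, hm⟩ = φ ⟨a, ha⟩ * φ ⟨x, hx⟩ * (φ ⟨a, ha⟩)⁻¹ := by
      rw [← map_inv, ← map_mul, ← map_mul]
      rfl
    rw [e]
    refine ⟨?_, ?_⟩
    · calc φ ⟨a, ha⟩ * φ ⟨x, hx⟩ * (φ ⟨a, ha⟩)⁻¹ * (φ ⟨a, ha⟩ * φ ⟨x, hx⟩ * (φ ⟨a, ha⟩)⁻¹)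
          = φ ⟨a, ha⟩ * (φ ⟨x, hx⟩ * φ ⟨x, hx⟩) * (φ ⟨a, ha⟩)⁻¹ := by group
        _ = 1 := by rw [hx1]; group
    · rw [map_mul, map_mul, hx2, mul_one, ← map_mul, mul_inv_cancel, map_one]
  · intro x
    refine ⟨1, ?_⟩
    rw [pow_one, pow_two]
    exact Subtype.ext (hsq x x.2)
  · intro h0
    obtain ⟨σ, h1, h2, h3⟩ := key_v6
    obtain ⟨a, ha, rfl⟩ := hφ.exists_alt σ h2
    have h4 : a ∈ V := ⟨ha, h1, h2⟩
    rw [h0, Subgroup.mem_bot] at h4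
    subst h4
    exact h3 (map_one φ)

/-! ### `A ≅ S₄` or `A₄` -/

theorem P3.iso (hP : P3 A B) (hK : K A B = ⊥) :
    Nonempty (↥A ≃* Equiv.Perm (Fin 4)) ∨ Nonempty (↥A ≃* ↥(alternatingGroup (Fin 4))) := by
  obtain ⟨φ, hφ⟩ := hP.hom
  have hinj : Function.Injective φ := by
    rw [injective_iff_map_eq_one]
    intro x h1
    have := (hφ.ker x).2 h1
    rw [show core A (A ⊓ B) = ⊥ from hK, Subgroup.mem_bot] at this
    exact Subtype.ext this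
  have h24 : Nat.card (Equiv.Perm (Fin 4)) = 24 := by
    rw [Nat.card_perm, Nat.card_fin]
    rfl
  have e := MonoidHom.ofInjective hinj
  have hc : Nat.card φ.range = Nat.card A := (Nat.card_congr e.toEquiv).symm
  have hidx := φ.range.card_mul_index
  rw [h24, hc] at hidx
  rcases hP.card_of_bot hK with h1 | h1
  · right
    rw [h1] at hidx
    have h2 : φ.range.index = 2 := by omega
    have h3 := Equiv.Perm.eq_alternatingGroup_of_index_eq_two h2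
    rw [← h3]
    exact ⟨e⟩
  · left
    rw [h1] at hidx
    have h2 : φ.range.index = 1 := by omega
    rw [Subgroup.index_eq_one] at h2
    rw [MonoidHom.range_eq_top] at h2
    exact ⟨MulEquiv.ofBijective φ ⟨hinj, h2⟩⟩

end

end Cfsg.Agent.H399
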