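import Cfsg.Agent.H399.Bridge

/-!
# Primitive groups with a suborbit of length 4: case I
-/

set_option autoImplicit false
set_option linter.unusedSectionVars false

open Pointwise

namespace Cfsg.Agent.H399

universe u

variable {G : Type u} [Group G]

section

variable [Finite G] {A B : Subgroup G}

theorem P3.card_K (h : P3 A B) (h0 : Op 2 A ≠ ⊥) (hK : K A B ≠ ⊥) :
    Nat.card (K A B) = 3 ∨ Nat.card (K A B) = 6 := by
  have h1 := h.relIndex_KK hK
  rwa [← Subgroup.inf_relIndex_right, inf_comm, h.L_bot h0, Subgroup.relIndex_bot_left] at h1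

theorem P3.relIndex_AC (h : P3 A B) : (K A B).relIndex A = (K A B).relIndex (A ⊓ B) * 4 := by
  rw [← h.idx, Subgroup.relIndex_mul_relIndex _ _ _ (K_le A B) inf_le_left]

theorem P3.card_K_eq (h : P3 A B) (h0 : Op 2 A ≠ ⊥) : Nat.card (K A B) = Nat.card (K B A) := by
  have h1 := (HV.of_Op h h0).card_cent h
  have h2 := (HV.of_Op h.symm (h.Op_ne_bot h0)).card_cent h.symm
  obtain ⟨g, hg⟩ := h.conj
  rw [← card_cj g, cj_inf, cj_centralizer, cj_Op, hg] at h1
  omega

theorem P3.of_six (h : P3 A B) (h0 : Op 2 A ≠ ⊥) (hK : K A B ≠ ⊥) (h6 : Nat.card (K A B) = 6) :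
    (K A B).relIndex A = 24 := by
  have h1 := h.relIndex_N_dvd (K_le' A B) (C_le_Nm_K' A B) (h.not_le' hK)
  have h2 : (K A B).relIndex (K B A) = 6 := by
    rw [← Subgroup.inf_relIndex_right, h.L_bot h0, Subgroup.relIndex_bot_left, ← h.card_K_eq h0, h6]
  rw [h2] at h1
  rw [h.relIndex_AC]
  rcases h.relIndex_C with h3 | h3
  · rw [h3] at h1
    omega
  · rw [h3]

theorem P3.Op_le_K (h : P3 A B) : Op 3 A ≤ K A B := h.le_K_of_three (Op_le 3 A) (le_Nm_Op 3 A) (isPGroup_Op 3 A)

theorem P3.card_R (h : P3 A B) (h0 : Op 2 A ≠ ⊥) (hK : K A B ≠ ⊥) : Nat.card (Op 3 A) = 3 := by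
  have : Fact (Nat.Prime 3) := ⟨Nat.prime_three⟩
  have hk := h.card_K h0 hK
  obtain ⟨x, hx⟩ := exists_prime_orderOf_dvd_card' (G := K A B) 3 (by rcases hk with hk | hk <;> rw [hk] <;> norm_num)
  have hx3 : orderOf (x : G) = 3 := by rw [Subgroup.orderOf_coe, hx]
  have hxK : Subgroup.zpowers (x : G) ≤ K A B := (Subgroup.zpowers_le).2 x.2
  have hc : Nat.card (Subgroup.zpowers (x : G)) = 3 := by rw [Nat.card_zpowers, hx3]
  have h1 := card_mul_relIndex hxK
  rw [hc] at h1
  have h2 : K A B ≤ Nm (Subgroup.zpowers (x : G)) := by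
    rcases hk with hk | hk
    · rw [hk] at h1
      have h3 : (Subgroup.zpowers (x : G)).relIndex (K A B) = 1 := by omega
      rw [Subgroup.relIndex_eq_one] at h3
      rw [le_antisymm hxK h3]
      exact self_le_Nm _
    · rw [hk] at h1
      exact le_Nm_of_two hxK (by omega)
  have h3 : IsPGroup 3 (Subgroup.zpowers (x : G)) := IsPGroup.of_card (n := 1) (by rw [hc]; norm_num)
  have h4 : Subgroup.zpowers (x : G) ≤ Op 3 A := by
    refine (le_Op hxK h2 h3).trans (le_Op ((Op_le _ _).trans (K_le_left A B)) ?_ (isPGroup_Op 3 _))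
    exact (le_Nm_K A B).trans (Nm_le_Nm_Op 3 _)
  have h5 : 3 ∣ Nat.card (Op 3 A) := by
    have := Subgroup.card_dvd_of_le h4
    rwa [hc] at this
  obtain ⟨n, hn⟩ := IsPGroup.iff_card.1 (isPGroup_Op 3 A)
  have h6 : Nat.card (Op 3 A) ∣ 6 := (Subgroup.card_dvd_of_le h.Op_le_K).trans (by rcases hk with hk | hk <;> rw [hk] <;> norm_num)
  have h7 : Nat.card (Op 3 A) ≤ 6 := Nat.le_of_dvd (by norm_num) h6
  rw [hn] at h5 h6 h7 ⊢
  have hn2 : n < 2 := by
    by_contra hcon
    push Not at hcon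
    have : 3 ^ 2 ≤ 3 ^ n := Nat.pow_le_pow_right (by norm_num) hcon
    omega
  interval_cases n
  · omega
  · norm_num

theorem P3.RR_bot (h : P3 A B) (h0 : Op 2 A ≠ ⊥) : Op 3 A ⊓ Op 3 B = ⊥ := by
  rw [← le_bot_iff, ← h.L_bot h0]
  exact inf_le_inf h.Op_le_K h.symm.Op_le_K

theorem P3.RR_comm (h : P3 A B) (h0 : Op 2 A ≠ ⊥) : ∀ x ∈ Op 3 A, ∀ y ∈ Op 3 B, x * y = y * x :=
  commute_of_inf_bot (h.RR_bot h0) (h.Op_le_K.trans ((K_le_right A B).trans (le_Nm_Op 3 B)))
    (h.symm.Op_le_K.trans ((K_le_right B A).trans (le_Nm_Op 3 A)))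

theorem P3.RV (h : P3 A B) (h0 : Op 2 A ≠ ⊥) {y : G} (hy : y ∈ Op 3 B)
    (hc : ∀ x ∈ Op 2 A, x * y = y * x) : y = 1 := by
  have hV := HV.of_Op h h0
  have hyK : y ∈ K B A := h.symm.Op_le_K hy
  have hyC := K_le' A B hyK
  obtain ⟨v, hv, k, hk, rfl⟩ := hV.of_cent h hyC.1 hc
  have h1 : v ∈ Op 2 A ⊓ (A ⊓ B) := by
    refine ⟨hv, ?_⟩
    have := (A ⊓ B).mul_mem hyC ((A ⊓ B).inv_mem (K_le A B hk))
    rwa [mul_inv_cancel_right] at this
  rw [hV.inf_C h, Subgroup.mem_bot] at h1
  subst h1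
  rw [one_mul] at hyK ⊢
  have h2 : k ∈ K A B ⊓ K B A := ⟨hk, hyK⟩
  rw [h.L_bot h0, Subgroup.mem_bot] at h2
  exact h2

/-- if `A/K ≅ S₄` then some element of `A ∩ B` does not centralize `O₃(B)` -/
theorem P3.exists_inv (h : P3 A B) (h0 : Op 2 A ≠ ⊥) (hK : K A B ≠ ⊥) (h24 : (K A B).relIndex A = 24) :
    ∃ t ∈ A ⊓ B, ∃ q ∈ Op 3 B, t * q * t⁻¹ ≠ q := by
  have hR := h.symm.card_R (h.Op_ne_bot h0) (h.K_ne_bot hK)
  have h6 : (K A B).relIndex (A ⊓ B) = 6 := by
    have := h.relIndex_AC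
    omega
  have hRC : Op 3 B ≤ A ⊓ B := h.symm.Op_le_K.trans (K_le' A B)
  have hcard := card_sup (hRC.trans (C_le_Nm_K A B))
  have hinf : Op 3 B ⊓ K A B = ⊥ := by
    rw [← le_bot_iff, ← h.L_bot h0, inf_comm]
    exact inf_le_inf le_rfl h.symm.Op_le_K
  rw [hinf, Subgroup.card_bot, hR, mul_one] at hcard
  have hCcard := card_mul_relIndex (K_le A B)
  rw [h6] at hCcard
  have hpos : 0 < Nat.card (K A B) := Nat.card_pos
  obtain ⟨t, ht, htM⟩ : ∃ t ∈ A ⊓ B, t ∉ Op 3 B ⊔ K A B := by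
    by_contra hcon
    push Not at hcon
    have h1 : A ⊓ B ≤ Op 3 B ⊔ K A B := fun t ht => hcon t ht
    have h2 := Nat.le_of_dvd Nat.card_pos (Subgroup.card_dvd_of_le h1)
    omega
  obtain ⟨q, hq, hq1⟩ : ∃ q ∈ Op 3 B, q ≠ 1 := by
    by_contra hcon
    push Not at hcon
    rw [(Subgroup.eq_bot_iff_forall _).2 hcon, Subgroup.card_bot] at hR
    omega
  have hq3 : q ^ 3 = 1 := by
    have : (⟨q, hq⟩ : Op 3 B) ^ Nat.card (Op 3 B) = 1 := pow_card_eq_one'
    rw [hR] at this
    exact congrArg Subtype.val this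
  have hqK : q ∉ K A B := by
    intro h1
    have h2 : q ∈ Op 3 B ⊓ K A B := ⟨hq, h1⟩
    rw [hinf, Subgroup.mem_bot] at h2
    exact hq1 h2
  have hqM : q ∈ Op 3 B ⊔ K A B := Subgroup.mem_sup_left hq
  have h1 := h.inverts (q := q) (t := t) (hRC hq) ht (by rw [hq3]; exact (K A B).one_mem) hqK
    (fun h2 => htM (Subgroup.mem_sup_right h2))
    (fun h2 => htM (by
      have := (Op 3 B ⊔ K A B).mul_mem (Subgroup.mem_sup_right h2) hqM
      rwa [inv_mul_cancel_right] at this))
    (fun h2 => htM (by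
      have := (Op 3 B ⊔ K A B).mul_mem (Subgroup.mem_sup_right h2) ((Op 3 B ⊔ K A B).inv_mem hqM)
      rwa [mul_inv_cancel_right] at this))
  refine ⟨t, ht, q, hq, fun h2 => ?_⟩
  have h3 : t * q * t⁻¹ * q ∈ Op 3 B ⊓ K A B := ⟨(Op 3 B).mul_mem (by rw [h2]; exact hq) hq, h1⟩
  rw [hinf, Subgroup.mem_bot, h2] at h3
  apply hq1
  calc q = q ^ 3 * (q * q)⁻¹ := by group
    _ = 1 := by rw [hq3, h3]; group

theorem P3.exists_gen (h : P3 A B) (h0 : Op 2 A ≠ ⊥) (hK : K A B ≠ ⊥) : ∃ z ∈ Op 3 A, z ≠ 1 ∧ z ^ 3 = 1 ∧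
    Op 3 A = Subgroup.zpowers z := by
  have hR := h.card_R h0 hK
  obtain ⟨z, hz, hz1⟩ : ∃ q ∈ Op 3 A, q ≠ 1 := by
    by_contra hcon
    push Not at hcon
    rw [(Subgroup.eq_bot_iff_forall _).2 hcon, Subgroup.card_bot] at hR
    omega
  have hz3 : z ^ 3 = 1 := by
    have : (⟨z, hz⟩ : Op 3 A) ^ Nat.card (Op 3 A) = 1 := pow_card_eq_one'
    rw [hR] at this
    exact congrArg Subtype.val this
  refine ⟨z, hz, hz1, hz3, ?_⟩
  have : Fact (Nat.Prime 3) := ⟨Nat.prime_three⟩
  symm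
  apply Subgroup.eq_of_le_of_card_ge ((Subgroup.zpowers_le).2 hz)
  rw [hR, Nat.card_zpowers, orderOf_eq_prime hz3 hz1]

/-- the centraliser of `O₃(A)` in `A` has index at most 2 -/
theorem P3.cent_R (h : P3 A B) (h0 : Op 2 A ≠ ⊥) (hK : K A B ≠ ⊥) :
    (Subgroup.centralizer (Op 3 A : Set G)).relIndex A ≤ 2 := by
  obtain ⟨z, hz, hz1, hz3, he⟩ := h.exists_gen h0 hK
  have e : Subgroup.centralizer (Op 3 A : Set G) = Subgroup.centralizer {z} := by
    rw [he, Subgroup.zpowers_eq_closure, Subgroup.centralizer_closure]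
  rw [e]
  refine relIndex_cent_le hz3 hz1 fun n hn => ?_
  have h1 : n * z * n⁻¹ ∈ Op 3 A := Nm_conj (le_Nm_Op 3 A hn) hz
  rw [he, Subgroup.mem_zpowers_iff] at h1
  obtain ⟨k, hk⟩ := h1
  have h2 : n * z * n⁻¹ ≠ 1 := by
    intro h3
    apply hz1
    have : z = n⁻¹ * (n * z * n⁻¹) * n := by group
    rw [this, h3]
    group
  rw [← hk] at h2 ⊢
  have hmod : k % 3 = 0 ∨ k % 3 = 1 ∨ k % 3 = 2 := by omega
  have hz3' : z ^ (3 : ℤ) = 1 := by exact_mod_cast hz3
  have hk' : k = 3 * (k / 3) + k % 3 := by omega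
  rcases hmod with hm | hm | hm
  · exfalso
    apply h2
    rw [hk', hm, add_zero, zpow_mul, hz3', one_zpow]
  · left
    rw [hk', hm, zpow_add, zpow_mul, hz3', one_zpow, one_mul, zpow_one]
  · right
    rw [hk', hm, zpow_add, zpow_mul, hz3', one_zpow, one_mul, eq_inv_iff_mul_eq_one]
    rw [← hz3']
    group

theorem P3.card_cent_R (h : P3 A B) (h0 : Op 2 A ≠ ⊥) (hK : K A B ≠ ⊥) :
    (Nat.card A = 36 → Nat.card (Subgroup.centralizer (Op 3 A : Set G) ⊓ A : Subgroup G) = 36) ∧
    (Nat.card A = 72 → Nat.card (Subgroup.centralizer (Op 3 A : Set G) ⊓ A : Subgroup G) = 36) ∧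
    (Nat.card A = 144 → Nat.card (Subgroup.centralizer (Op 3 A : Set G) ⊓ A : Subgroup G) = 72) := by
  have h1 := h.cent_R h0 hK
  have h2 := card_inf_mul_relIndex A (Subgroup.centralizer (Op 3 A : Set G))
  have hV := HV.of_Op h h0
  have h4 : 4 ∣ Nat.card (Subgroup.centralizer (Op 3 A : Set G) ⊓ A : Subgroup G) := by
    rw [← hV.card h]
    refine Subgroup.card_dvd_of_le (le_inf (fun v hv => ?_) hV.le)
    rw [Subgroup.mem_centralizer_iff]
    intro x hx
    exact (hV.commK hv (h.Op_le_K hx)).symm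
  have h5 : (Subgroup.centralizer (Op 3 A : Set G)).relIndex A ≠ 0 := by
    intro h5
    rw [h5, mul_zero] at h2
    have := Nat.card_pos (α := A)
    omega
  have key : (K A B).relIndex A = 24 → (Subgroup.centralizer (Op 3 A : Set G)).relIndex A = 2 := by
    intro h24
    by_contra hcon
    have h6 : (Subgroup.centralizer (Op 3 A : Set G)).relIndex A = 1 := by omega
    rw [Subgroup.relIndex_eq_one] at h6
    have h24' : (K B A).relIndex B = 24 := by
      have e1 := card_mul_relIndex (K_le_left A B)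
      have e2 := card_mul_relIndex (K_le_left B A)
      rw [h24] at e1
      rw [h.card_eq, ← h.card_K_eq h0, ← e1] at e2
      exact Nat.eq_of_mul_eq_mul_left Nat.card_pos e2
    obtain ⟨t, ht, q, hq, htq⟩ := h.symm.exists_inv (h.Op_ne_bot h0) (h.K_ne_bot hK) h24'
    apply htq
    have := Subgroup.mem_centralizer_iff.1 (h6 ht.2) q hq
    rw [← this, mul_inv_cancel_right]
  have hk := h.card_K h0 hK
  have hA := card_mul_relIndex (K_le_left A B)
  have hi := h.relIndex_A
  have h6 := h.of_six h0 hK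
  refine ⟨fun hA3 => ?_, fun hA7 => ?_, fun hA1 => ?_⟩
  · rw [hA3] at h2
    have : (Subgroup.centralizer (Op 3 A : Set G)).relIndex A = 1 ∨
      (Subgroup.centralizer (Op 3 A : Set G)).relIndex A = 2 := by omega
    rcases this with h7 | h7 <;> rw [h7] at h2 <;> omega
  · have h24 : (K A B).relIndex A = 24 := by
      rcases hk with hk | hk
      · rw [hk, hA7] at hA
        omega
      · exact h6 hk
    rw [key h24, hA7] at h2
    omega
  · have h24 : (K A B).relIndex A = 24 := by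
      rcases hk with hk | hk
      · rw [hk, hA1] at hA
        omega
      · exact h6 hk
    rw [key h24, hA1] at h2
    omega

theorem Pr.normalCore (h : Pr A B) : A.normalCore = ⊥ := by
  apply h.core
  intro x y hy
  rw [mem_cj]
  have := hy x⁻¹
  simpa using this

/-- **Case I.** -/
theorem Pr.caseI (h : Pr A B) (hP : P3 A B) (hsol : ¬ Group.IsSolvable G) (hK : K A B ≠ ⊥) (h0 : Op 2 A ≠ ⊥) :
    ∃ V R g, CaseI A V R g ∧
      ((Nat.card A = 36 → Nat.card (Subgroup.centralizer (R : Set G)) = 36) ∧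
      (Nat.card A = 72 → Nat.card (Subgroup.centralizer (R : Set G)) = 36) ∧
      (Nat.card A = 144 → Nat.card (Subgroup.centralizer (R : Set G)) = 72)) ∧
      ((Nat.card A = 36 → Nat.card (Subgroup.centralizer (V : Set G)) = 12) ∧
      (Nat.card A = 72 → Nat.card (Subgroup.centralizer (V : Set G)) = 12) ∧
      (Nat.card A = 144 → Nat.card (Subgroup.centralizer (V : Set G)) = 24)) := by
  obtain ⟨g, hg⟩ := h.conj
  have hV := HV.of_Op hP h0
  have hR := hP.card_R h0 hK
  have hR0 : Op 3 A ≠ ⊥ := by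
    intro h1
    rw [h1, Subgroup.card_bot] at hR
    omega
  have hNV : Nm (Op 2 A) = A := h.Nm_eq hV.le h0 hV.nm
  have hNR : Nm (Op 3 A) = A := h.Nm_eq (Op_le 3 A) hR0 (le_Nm_Op 3 A)
  have hCV : Subgroup.centralizer (Op 2 A : Set G) ≤ A := by
    refine le_trans ?_ hNV.le
    exact Subgroup.centralizer_le_normalizer _
  have hCR : Subgroup.centralizer (Op 3 A : Set G) ≤ A := by
    refine le_trans ?_ hNR.le
    exact Subgroup.centralizer_le_normalizer _
  refine ⟨Op 2 A, Op 3 A, g, ?_, ?_, ?_⟩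
  · exact
      { sol := hsol
        max := h.max
        core := h.normalCore
        cardV := hV.card hP
        expV := fun x hx => hV.sq hP hx
        cardR := hR
        normV := hNV
        normR := hNR
        centVR := fun x hx y hy => hV.commK hx (hP.Op_le_K hy)
        idx := by
          have := h.idx
          rw [← hg, inf_comm, Subgroup.inf_relIndex_right] at this
          exact this
        RA := by
          have e : MulAut.conj g • Op 3 A = Op 3 B := by
            have := cj_Op 3 g A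
            rw [hg] at this
            exact this
          rw [e]
          exact hP.symm.Op_le_K.trans (K_le_right B A)
        RR := by
          have e : MulAut.conj g • Op 3 A = Op 3 B := by
            have := cj_Op 3 g A
            rw [hg] at this
            exact this
          rw [e]
          exact hP.RR_comm h0
        RV := by
          have e : MulAut.conj g • Op 3 A = Op 3 B := by
            have := cj_Op 3 g A
            rw [hg] at this
            exact this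
          rw [e]
          exact fun y hy hc => hP.RV h0 hy hc }
  · rw [← inf_of_le_left hCR]
    exact hP.card_cent_R h0 hK
  · have h1 := hV.card_cent hP
    rw [inf_of_le_right hCV] at h1
    have hk := hP.card_K h0 hK
    have hA := card_mul_relIndex (K_le_left A B)
    have hi := hP.relIndex_A
    have h6 := hP.of_six h0 hK
    rw [h1]
    refine ⟨fun hA3 => ?_, fun hA7 => ?_, fun hA1 => ?_⟩
    · rcases hk with hk | hk
      · rw [hk]
      · rw [h6 hk, hk] at hA
        omega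
    · rcases hk with hk | hk
      · rw [hk]
      · rw [h6 hk, hk] at hA
        omega
    · rcases hk with hk | hk
      · rw [hk] at hA
        rcases hi with hi | hi <;> rw [hi] at hA <;> omega
      · rw [hk]

end

end Cfsg.Agent.H399
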