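import Cfsg.Agent.H399.BridgeB
import Cfsg.Prelude.Def_Classification2

/-!
# Insoluble primitive groups with a suborbit of length 4: the assembly
-/

set_option autoImplicit false
set_option linter.unusedSectionVars false

open Cfsg Pointwise

namespace Cfsg.Agent.H399

universe u

/-- The identification lemmas. -/
structure IdentFacts : Prop where
  two_case : ∀ {G : Type u} [Group G] [Finite G] (_ : ¬ Group.IsSolvable G) {A : Subgroup G} (_ : IsCoatom A)
    (_ : A.normalCore = ⊥) (g : G) (_ : (MulAut.conj g • A).relIndex A = 4)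
    (_ : Nat.card A = 4 ∨ Nat.card A = 8 ∨ Nat.card A = 16 ∨ Nat.card A = 32),
    Nat.card G ∈ ({336, 720, 1440, 2448} : Set ℕ)
  four_case : ∀ {G : Type u} [Group G] [Finite G] (_ : ¬ Group.IsSolvable G) {A V : Subgroup G} (_ : IsCoatom A)
    (_ : A.normalCore = ⊥) (_ : Nat.card V = 4) (_ : ∀ x ∈ V, x * x = 1)
    (_ : Subgroup.centralizer (V : Set G) = V) (_ : Subgroup.normalizer (V : Set G) = A)
    (_ : Nat.card A = 12 ∨ Nat.card A = 24),
    (∃ T : Subgroup G, T.Normal ∧ Subgroup.centralizer (T : Set G) = ⊥ ∧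
      ∃ (F : Type) (_ : Field F) (_ : Fintype F), Nonempty (↥T ≃* Matrix.ProjectiveSpecialLinearGroup (Fin 2) F)) ∨
    Nat.card G ∈ ({5616, 2520, 5040} : Set ℕ)
  case_one_36 : ∀ {G : Type u} [Group G] [Finite G] {A V R : Subgroup G} {g : G} (_ : CaseI A V R g)
    (_ : Nat.card A = 36) (_ : Nat.card (Subgroup.centralizer (R : Set G)) = 36)
    (_ : Nat.card (Subgroup.centralizer (V : Set G)) = 12), Nat.card G ∈ ({29484} : Set ℕ)
  case_one_72 : ∀ {G : Type u} [Group G] [Finite G] {A V R : Subgroup G} {g : G} (_ : CaseI A V R g)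
    (_ : ∀ {F : Type} [Field F] [Fintype F] (_ : Fintype.card F = 25) (T : Subgroup G) [T.Normal]
      (_ : Subgroup.centralizer (T : Set G) = ⊥) (_ : T ≃* PSU 3 F 5), V ≤ T → False)
    (_ : Nat.card A = 72) (_ : Nat.card (Subgroup.centralizer (R : Set G)) = 36)
    (_ : Nat.card (Subgroup.centralizer (V : Set G)) = 12),
    Nat.card G ∈ ({1876896, 3753792, 2520, 5040} : Set ℕ)
  case_one_144 : ∀ {G : Type u} [Group G] [Finite G] {A V R : Subgroup G} {g : G} (_ : CaseI A V R g)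
    (_ : ∀ {F : Type} [Field F] [Fintype F] (_ : Fintype.card F = 25) (T : Subgroup G) [T.Normal]
      (_ : Subgroup.centralizer (T : Set G) = ⊥) (_ : T ≃* PSU 3 F 5), V ≤ T → False)
    (_ : Nat.card A = 144) (_ : Nat.card (Subgroup.centralizer (R : Set G)) = 72)
    (_ : Nat.card (Subgroup.centralizer (V : Set G)) = 24),
    Nat.card G ∈ ({1876896, 3753792, 2520, 5040} : Set ℕ)
  u35 : ∀ {F : Type} [Field F] [Fintype F] (_ : Fintype.card F = 25) {G : Type u} [Group G] [Finite G]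
    (T : Subgroup G) [T.Normal] (_ : Subgroup.centralizer (T : Set G) = ⊥) (_ : T ≃* PSU 3 F 5)
    {A V : Subgroup G} (_ : IsCoatom A) (_ : Nat.card V = 4) (_ : V ≤ T) (_ : Subgroup.normalizer (V : Set G) = A)
    (_ : Nat.card (Subgroup.centralizer (V : Set G)) = 12 ∨ Nat.card (Subgroup.centralizer (V : Set G)) = 24), False

theorem mem_a {n : ℕ} (h : n ∈ ({336, 720, 1440, 2448} : Set ℕ)) :
    n ∈ ({336, 720, 1440, 2448, 29484, 5616, 1876896, 3753792, 2520, 5040} : Set ℕ) := by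
  simp only [Set.mem_insert_iff, Set.mem_singleton_iff] at h ⊢
  omega

theorem mem_b {n : ℕ} (h : n ∈ ({5616, 2520, 5040} : Set ℕ)) :
    n ∈ ({336, 720, 1440, 2448, 29484, 5616, 1876896, 3753792, 2520, 5040} : Set ℕ) := by
  simp only [Set.mem_insert_iff, Set.mem_singleton_iff] at h ⊢
  omega

theorem mem_c {n : ℕ} (h : n ∈ ({29484} : Set ℕ)) :
    n ∈ ({336, 720, 1440, 2448, 29484, 5616, 1876896, 3753792, 2520, 5040} : Set ℕ) := by
  simp only [Set.mem_insert_iff, Set.mem_singleton_iff] at h ⊢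
  omega

theorem mem_d {n : ℕ} (h : n ∈ ({1876896, 3753792, 2520, 5040} : Set ℕ)) :
    n ∈ ({336, 720, 1440, 2448, 29484, 5616, 1876896, 3753792, 2520, 5040} : Set ℕ) := by
  simp only [Set.mem_insert_iff, Set.mem_singleton_iff] at h ⊢
  omega

theorem ident (X : IdentFacts.{u}) {G : Type u} [Group G] [Finite G] (hsol : ¬ Group.IsSolvable G)
    {A B : Subgroup G} (h : Pr A B)
    (hl : (IsPGroup 2 A ∧ (Nat.card A = 4 ∨ Nat.card A = 8 ∨ Nat.card A = 16 ∨ Nat.card A = 32)) ∨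
      (P3 A B ∧ K A B = ⊥ ∧ (Nat.card A = 12 ∨ Nat.card A = 24)) ∨
      (P3 A B ∧ K A B ≠ ⊥ ∧ Op 2 A ≠ ⊥ ∧ (Nat.card A = 36 ∨ Nat.card A = 72 ∨ Nat.card A = 144))) :
    (∃ T : Subgroup G, T.Normal ∧ Subgroup.centralizer (T : Set G) = ⊥ ∧
      (∃ (F : Type) (_ : Field F) (_ : Fintype F), Nonempty (↥T ≃* Matrix.ProjectiveSpecialLinearGroup (Fin 2) F)) ∧
      (Nonempty (↥A ≃* Equiv.Perm (Fin 4)) ∨ Nonempty (↥A ≃* ↥(alternatingGroup (Fin 4))))) ∨
    Nat.card G ∈ ({336, 720, 1440, 2448, 29484, 5616, 1876896, 3753792, 2520, 5040} : Set ℕ) := by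
  have hcore := h.normalCore
  rcases hl with ⟨-, hA⟩ | ⟨hP, hK, hA⟩ | ⟨hP, hK, h0, hA⟩
  · right
    obtain ⟨g, hg⟩ := h.conj
    have hidx : (MulAut.conj g • A).relIndex A = 4 := by
      have := h.idx
      rw [← hg, inf_comm, Subgroup.inf_relIndex_right] at this
      exact this
    exact mem_a (X.two_case hsol h.max hcore g hidx hA)
  · obtain ⟨V, hV⟩ := exists_HV hP hK
    have hN : Nm V = A := h.Nm_eq hV.le hV.ne hV.nm
    have hC : Subgroup.centralizer (V : Set G) = V := by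
      have h1 : Subgroup.centralizer (V : Set G) ≤ A := (Subgroup.centralizer_le_normalizer _).trans hN.le
      have h2 := hV.cent hP
      rw [inf_of_le_right h1, hK, sup_bot_eq] at h2
      exact h2
    rcases X.four_case hsol h.max hcore (hV.card hP) (fun x hx => hV.sq hP hx) hC hN hA with ⟨T, h1, h2, h3⟩ | h1
    · left
      exact ⟨T, h1, h2, h3, hP.iso hK⟩
    · exact Or.inr (mem_b h1)
  · right
    obtain ⟨V, R, g, hI, hR, hV⟩ := h.caseI hP hsol hK h0
    have hC : Nat.card (Subgroup.centralizer (V : Set G)) = 12 ∨ Nat.card (Subgroup.centralizer (V : Set G)) = 24 := by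
      rcases hA with hA | hA | hA
      · exact Or.inl (hV.1 hA)
      · exact Or.inl (hV.2.1 hA)
      · exact Or.inr (hV.2.2 hA)
    have hu : ∀ {F : Type} [Field F] [Fintype F] (_ : Fintype.card F = 25) (T : Subgroup G) [T.Normal]
        (_ : Subgroup.centralizer (T : Set G) = ⊥) (_ : T ≃* PSU 3 F 5), V ≤ T → False := by
      intro F _ _ hF T _ hT e hVT
      exact X.u35 hF T hT e h.max hI.cardV hVT hI.normV hC
    rcases hA with hA | hA | hA
    · exact mem_c (X.case_one_36 hI hA (hR.1 hA) (hV.1 hA))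
    · exact mem_d (X.case_one_72 hI hu hA (hR.2.1 hA) (hV.2.1 hA))
    · exact mem_d (X.case_one_144 hI hu hA (hR.2.2 hA) (hV.2.2 hA))

end Cfsg.Agent.H399
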